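import Cfsg.Agent.Lib.H10.FiThree
import Cfsg.Agent.Lib.H35.FiClass23
import Cfsg.Agent.Lib.H35.Fi23Index
import Cfsg.Agent.Lib.H34.Fi23D

set_option autoImplicit false

/-! Fi23 as a 3-transposition group. -/

namespace H10.FiThree

open Cfsg H35.Fi23Main

theorem H1_eq23 : H1 = HS := by
  unfold H1 HS
  congr 1
  ext y
  constructor
  · rintro ⟨x, rfl⟩
    refine ⟨[i1 x], ?_, by simp⟩
    cases x <;> decide
  · rintro ⟨w, hw', rfl⟩
    simp only [H35.TCFi23A.subs, List.mem_cons, List.mem_nil_iff, or_false] at hw'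
    rcases hw' with rfl | rfl | rfl | rfl | rfl | rfl | rfl | rfl | rfl
    · exact ⟨.a, by simp [i1]⟩
    · exact ⟨.b, by simp [i1]⟩
    · exact ⟨.c, by simp [i1]⟩
    · exact ⟨.d, by simp [i1]⟩
    · exact ⟨.e, by simp [i1]⟩
    · exact ⟨.f, by simp [i1]⟩
    · exact ⟨.g, by simp [i1]⟩
    · exact ⟨.h, by simp [i1]⟩
    · exact ⟨.i, by simp [i1]⟩

theorem t_ne23 : H35.FiClass23.t ≠ 1 := by
  intro h
  have h1 := H35.FiClass23.centralizer_t
  rw [h] at h1
  have h2 : (Subgroup.centralizer ({1} : Set Cfsg.Spor.Fi23)) = ⊤ := by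
    rw [eq_top_iff]
    intro x _
    rw [Subgroup.mem_centralizer_iff]
    intro s hs
    rw [Set.mem_singleton_iff.1 hs, one_mul, mul_one]
  rw [h2] at h1
  have h3 := H35.FiClass23.HS_index
  rw [← h1, Subgroup.index_top] at h3
  norm_num at h3

theorem class23 : IsThreeTranspositionClass (conjugatesOf H35.FiClass23.t) := by
  refine transClass H35.FiClass23.t_sq t_ne23 (fun x hx y hy => H35.FiClass23.D_three
    (by rw [H35.FiClass23.D_eq]; exact hx) (by rw [H35.FiClass23.D_eq]; exact hy)) ?_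
  rw [eq_top_iff, ← genP, Subgroup.closure_le]
  rintro _ ⟨x, rfl⟩
  refine Subgroup.subset_closure ?_
  rw [← H35.FiClass23.D_eq]
  exact H35.FiClass23.letter_mem x

theorem main23 : ∃ (G : Type) (_ : Group G) (_ : Finite G), Cfsg.IsFi23 G ∧ ∃ D : Set G, Cfsg.IsThreeTranspositionClass D ∧ Nat.card D = 31671 ∧ ∀ d ∈ D, ∃ (K : Type) (_ : Group K), Cfsg.IsFi22 K ∧ Cfsg.IsNonsplitDoubleCover (Subgroup.centralizer ({d} : Set G)) K := by
  refine ⟨Cfsg.Spor.Fi23, inferInstance, fin, ⟨simple, card_inj.1⟩, conjugatesOf H35.FiClass23.t, class23, ?_, ?_⟩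
  · rw [Nat.card_coe_set_eq, ← H35.FiClass23.D_eq]; exact H35.FiClass23.D_card
  · intro d hd
    refine ⟨Cfsg.Spor.Fi22, inferInstance, ⟨H35.Fi22Main.simple, H35.Fi22Main.card_inj.1⟩, ?_⟩
    obtain ⟨e⟩ := centralizer_conj (show IsConj H35.FiClass23.t d from hd)
    refine nsdc_congr e ?_
    rw [H35.FiClass23.centralizer_t, ← H1_eq23]
    exact H34.Fi23D.main

end H10.FiThree
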