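import Cfsg.Agent.Lib.H10.J3T5
import Cfsg.Agent.Lib.H57.FusSimple

set_option autoImplicit false
set_option linter.unusedSectionVars false

/-! The 2-fusion system of J3 is simple. -/

namespace H10.J3T

open H10.BitPar H10.BitOrb H10.BitTab H10.J3Data H10.J3DataT H10.J3Comp H10.J3Order H10.J3Tab H10.J3Model H10.J3Simple
open Cfsg.Spor

/-! ### kernel computations -/

def x1W : List ℕ := [1, 0, 0, 1, 0, 1, 1]
def y1W : List ℕ := [0, 0, 1, 0, 0, 1, 0, 1, 1, 0]
def x2W : List ℕ := [0, 0, 1, 0, 1, 1, 0]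
def y2W : List ℕ := [1, 1, 0, 0, 1, 0, 1, 1, 0, 1]

/-- the eighth power is trivial -/
def pow8 (w : List ℕ) : Bool := eq17 (w ++ (w ++ (w ++ (w ++ (w ++ (w ++ (w ++ w))))))) []

def zChkP : Bool := (List.range 128).all fun m =>
  cond ([3, 4, 5, 6].all fun i => eq17 (bw m ++ [i]) (i :: bw m))
    (cond (eq17 (bw m) []) true (eq17 (bw m) [7])) true

theorem zChkP_eq : zChkP = true := by decide +kernel
theorem p1 : pow8 x1W = true := by decide +kernel
theorem p2 : pow8 y1W = true := by decide +kernel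
theorem p3 : pow8 x2W = true := by decide +kernel
theorem p4 : pow8 y2W = true := by decide +kernel
theorem r1 : eq17 (y1W ++ x1W) [0] = true := by decide +kernel
theorem r2 : eq17 (y2W ++ x2W) [1] = true := by decide +kernel
theorem i3 : eq17 [3, 3] [] = true := by decide +kernel
theorem i8 : eq17 [8, 8] [] = true := by decide +kernel
theorem i9 : eq17 [9, 9] [] = true := by decide +kernel
theorem j1 : eq17 (bw 1 ++ bw 1) [] = true := by decide +kernel
theorem j3 : eq17 (bw 3 ++ bw 3) [] = true := by decide +kernel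
theorem j19 : eq17 (bw 19 ++ bw 19) [] = true := by decide +kernel
theorem j23 : eq17 (bw 23 ++ bw 23) [] = true := by decide +kernel
theorem j27 : eq17 (bw 27 ++ bw 27) [] = true := by decide +kernel
theorem k4 : eq17 (bw 19 ++ bw 1) [4] = true := by decide +kernel
theorem k5 : eq17 (bw 23 ++ bw 3) [5] = true := by decide +kernel
theorem k6 : eq17 (bw 27 ++ bw 3) [6] = true := by decide +kernel

variable {F : Type*} [Field F] [Fintype F] (hF : Fintype.card F = 4) {ω : F} (h : Good ω)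

/-- the centralizer of `Q` in the Sylow subgroup -/
theorem cent_P {x : Equiv.Perm (F9 → F)} (hx : x ∈ GP hF h) (hc : ∀ y ∈ GQ hF h, x * y = y * x) :
    x = 1 ∨ x = T hF h := by
  obtain ⟨m, hm, rfl⟩ := exists_word_P hF h hx
  have hlt : ∀ i ∈ bw m, i < 10 := fun i hi => (bw128 m hm i hi).2
  have h1 := range_all zChkP_eq m hm
  have h2 : ([3, 4, 5, 6].all fun i => eq17 (bw m ++ [i]) (i :: bw m)) = true := by
    rw [List.all_eq_true]
    intro i hi
    have hi10 : i < 10 := by
      have hlt : ∀ k ∈ [3, 4, 5, 6], k < 10 := by decide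
      exact hlt i hi
    have h3 : W (coding hF h) (bw m) * L (coding hF h) i = L (coding hF h) i * W (coding hF h) (bw m) := by
      apply hc
      simp only [List.mem_cons, List.not_mem_nil, or_false] at hi
      exact L_GQ hF h (by omega)
    apply (eq17_iff hF h ?_ ?_).2
    · rw [W_append, W_single, W_cons, h3]
    · intro k hk
      rcases List.mem_append.1 hk with hk | hk
      · exact hlt k hk
      · rw [List.mem_singleton.1 hk]; exact hi10
    · intro k hk
      rcases List.mem_cons.1 hk with rfl | hk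
      · exact hi10
      · exact hlt k hk
  rw [h2] at h1
  cases h4 : eq17 (bw m) [] with
  | true =>
    left
    rw [(eq17_iff hF h hlt (by decide)).1 h4, W_nil]
  | false =>
    right
    rw [h4] at h1
    have h6 : eq17 (bw m) [7] = true := h1
    rw [(eq17_iff hF h hlt (by decide)).1 h6, W_single]; rfl

/-- image in J3 -/
noncomputable def im (K : Subgroup (Equiv.Perm (F9 → F))) : Subgroup (J3 F ω) := (K.subgroupOf (GC hF h)).map (phi hF h)

theorem mem_im {K : Subgroup (Equiv.Perm (F9 → F))} (c : GC hF h) : phi hF h c ∈ im hF h K ↔ (c : Equiv.Perm (F9 → F)) ∈ K := by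
  constructor
  · rintro ⟨d, hd, e⟩
    rw [← phi_injective hF h e]; exact hd
  · intro hc; exact ⟨c, hc, rfl⟩

theorem T_GP : T hF h ∈ GP hF h := GQ_le_GP hF h (T_GQ hF h)

theorem tJ_eq : tJ hF h = phi hF h ⟨T hF h, GP_le_GC hF h (T_GP hF h)⟩ := rfl

include hF h in
theorem finJ : Finite (J3 F ω) := Nat.finite_of_card_ne_zero (by rw [card_J3 hF h]; norm_num)

/-- the Sylow 2-subgroup -/
noncomputable def SJ : Sylow 2 (J3 F ω) :=
  have := finJ hF h
  have := Fact.mk Nat.prime_two
  Sylow.ofCard (PJ hF h) (by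
    rw [card_PJ, card_J3 hF h]
    have : (50232960 : ℕ) = 2 ^ 7 * 392445 := by norm_num
    rw [this, Nat.factorization_mul (by norm_num) (by norm_num), Finsupp.add_apply,
      Nat.Prime.factorization_pow Nat.prime_two, Finsupp.single_eq_same,
      Nat.factorization_eq_zero_of_not_dvd (by norm_num : ¬ 2 ∣ 392445)]
    norm_num)

theorem SJ_eq : (SJ hF h : Subgroup (J3 F ω)) = im hF h (GP hF h) := rfl

theorem HA_J3 : H57.FusSimple.HA (SJ hF h : Subgroup (J3 F ω)) := by
  have hfin := finJ hF h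
  have h2 := Fact.mk Nat.prime_two
  intro T' hT hT1 hcl
  -- an involution
  have h3 : ∃ x ∈ T', orderOf x = 2 := by
    have h4 : 1 < Nat.card T' := by
      rw [Finite.one_lt_card_iff_nontrivial, Subgroup.nontrivial_iff_ne_bot]; exact hT1
    have h5 : Nat.card T' ∣ 2 ^ 7 := by
      have h6 : Nat.card (SJ hF h : Subgroup (J3 F ω)) = 128 := card_PJ hF h
      have := Subgroup.card_dvd_of_le hT
      rw [h6] at this
      exact this.trans (by norm_num)
    obtain ⟨k, _, hk⟩ := (Nat.dvd_prime_pow Nat.prime_two).1 h5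
    have h6 : 2 ∣ Nat.card T' := by
      rw [hk]
      apply dvd_pow_self
      rintro rfl
      rw [hk] at h4; norm_num at h4
    obtain ⟨x, hx⟩ := exists_prime_orderOf_dvd_card' 2 h6
    exact ⟨x, x.2, by rw [Subgroup.orderOf_coe]; exact hx⟩
  obtain ⟨x, hxT, hx⟩ := h3
  have key : ∀ y ∈ (SJ hF h : Subgroup (J3 F ω)), y * y = 1 → y ∈ T' := by
    intro y hy hyy
    by_cases hy1 : y = 1
    · rw [hy1]; exact T'.one_mem
    · have hyo : orderOf y = 2 := orderOf_eq_prime (by rw [pow_two]; exact hyy) hy1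
      obtain ⟨g, hg⟩ := isConj_iff.1 (involutions_conj hF h hx hyo)
      rw [← hg]
      apply hcl x hxT g
      rw [hg]; exact hy
  have key2 : ∀ w : List ℕ, (∀ i ∈ w, 3 ≤ i ∧ i < 10) → eq17 (w ++ w) [] = true →
      ∀ hw : W (coding hF h) w ∈ GC hF h, phi hF h ⟨W (coding hF h) w, hw⟩ ∈ T' := by
    intro w hw hww hwG
    apply key
    · rw [SJ_eq]
      rw [mem_im]
      exact W_mem _ fun i hi => L_GP hF h (hw i hi)
    · rw [← map_mul, ← map_one (phi hF h)]
      congr 1
      apply Subtype.ext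
      show W (coding hF h) w * W (coding hF h) w = 1
      rw [← W_append, (eq17_iff hF h (w := w ++ w) (v := []) (by
        intro i hi
        rcases List.mem_append.1 hi with hi | hi <;> exact (hw i hi).2) (by decide)).1 hww, W_nil]
  -- the subgroup of GC mapping into T'
  have h4 : GP hF h ≤ (T'.comap (phi hF h)).map (GC hF h).subtype := by
    have hmem : ∀ i, i < 10 → (∀ hi : L (coding hF h) i ∈ GC hF h, phi hF h ⟨L (coding hF h) i, hi⟩ ∈ T') →
        L (coding hF h) i ∈ (T'.comap (phi hF h)).map (GC hF h).subtype := by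
      intro i hi hh
      exact ⟨⟨_, L_GC hF h hi⟩, hh _, rfl⟩
    have hsq : ∀ i, 3 ≤ i → i < 10 → eq17 [i, i] [] = true → ∀ hi : L (coding hF h) i ∈ GC hF h, phi hF h ⟨L (coding hF h) i, hi⟩ ∈ T' := by
      intro i h3 h10 he hi
      have := key2 [i] (by intro j hj; rw [List.mem_singleton.1 hj]; exact ⟨h3, h10⟩) he (by rw [W_single]; exact hi)
      simpa only [W_single] using this
    have hprod : ∀ i m k, i < 10 → m < 128 → k < 128 → eq17 (bw k ++ bw m) [i] = true → eq17 (bw m ++ bw m) [] = true →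
        eq17 (bw k ++ bw k) [] = true → ∀ hi : L (coding hF h) i ∈ GC hF h, phi hF h ⟨L (coding hF h) i, hi⟩ ∈ T' := by
      intro i m k hi hm hk h5 h6 h7 hiG
      have hmG := W_GC hF h (fun j hj => (bw128 m hm j hj).2)
      have hkG := W_GC hF h (fun j hj => (bw128 k hk j hj).2)
      have e1 : W (coding hF h) (bw m) * W (coding hF h) (bw k) = L (coding hF h) i := by
        rw [← W_append, (eq17_iff hF h (by
          intro j hj
          rcases List.mem_append.1 hj with hj | hj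
          · exact (bw128 k hk j hj).2
          · exact (bw128 m hm j hj).2) (by intro j hj; rw [List.mem_singleton.1 hj]; exact hi)).1 h5, W_single]
      have e2 : (⟨L (coding hF h) i, hiG⟩ : GC hF h) = ⟨_, hmG⟩ * ⟨_, hkG⟩ := Subtype.ext e1.symm
      rw [e2, map_mul]
      exact T'.mul_mem (key2 _ (bw128 m hm) h6 hmG) (key2 _ (bw128 k hk) h7 hkG)
    apply gen_le
    intro l hl
    simp only [pg, List.mem_cons, List.not_mem_nil, or_false] at hl
    rcases hl with rfl | rfl | rfl | rfl | rfl | rfl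
    · exact hmem 3 (by norm_num) (hsq 3 (by norm_num) (by norm_num) i3)
    · exact hmem 4 (by norm_num) (hprod 4 1 19 (by norm_num) (by norm_num) (by norm_num) k4 j1 j19)
    · exact hmem 5 (by norm_num) (hprod 5 3 23 (by norm_num) (by norm_num) (by norm_num) k5 j3 j23)
    · exact hmem 6 (by norm_num) (hprod 6 3 27 (by norm_num) (by norm_num) (by norm_num) k6 j3 j27)
    · exact hmem 8 (by norm_num) (hsq 8 (by norm_num) (by norm_num) i8)
    · exact hmem 9 (by norm_num) (hsq 9 (by norm_num) (by norm_num) i9)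
  rintro _ ⟨p, hp, rfl⟩
  obtain ⟨c, hc, hcp⟩ := h4 hp
  have : c = p := Subtype.ext hcp
  rw [← this]; exact hc

/-! ### the normalizer -/

theorem im_normal {c : GC hF h} : phi hF h c ∈ Subgroup.normalizer ((im hF h (GQ hF h) : Subgroup (J3 F ω)) : Set (J3 F ω)) := by
  have hfin := finJ hF h
  apply mem_normalizer_of_conj
  rintro _ ⟨q, hq, rfl⟩
  rw [← map_inv, ← map_mul, ← map_mul, mem_im]
  exact (Subgroup.mem_normalizer_iff.1 (GC_normalizes hF h c.2) (q : Equiv.Perm (F9 → F))).1 hq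

theorem GC_le_opN (c : GC hF h) : phi hF h c ∈ H57.FusSimple.opN 2 (im hF h (GQ hF h)) := by
  have key : ∀ w : List ℕ, (∀ i ∈ w, i < 10) → pow8 w = true → ∀ hw : W (coding hF h) w ∈ GC hF h,
      phi hF h ⟨W (coding hF h) w, hw⟩ ∈ H57.FusSimple.opN 2 (im hF h (GQ hF h)) := by
    intro w hw h8 hwG
    apply H57.FusSimple.mem_opN (im_normal hF h) (k := 3) _ Nat.prime_two
    rw [← map_pow, ← map_one (phi hF h)]
    congr 1
    apply Subtype.ext
    show W (coding hF h) w ^ 8 = 1
    have h9 := (eq17_iff hF h (w := w ++ (w ++ (w ++ (w ++ (w ++ (w ++ (w ++ w))))))) (v := []) (by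
      intro i hi
      simp only [List.mem_append] at hi
      apply hw
      tauto) (by decide)).1 h8
    simp only [W_append, W_nil] at h9
    rw [← h9]
    simp only [pow_succ, pow_zero, one_mul]
  have h4 : GC hF h ≤ ((H57.FusSimple.opN 2 (im hF h (GQ hF h))).comap (phi hF h)).map (GC hF h).subtype := by
    have hprod : ∀ i w v, i < 10 → (∀ j ∈ w, j < 10) → (∀ j ∈ v, j < 10) → pow8 w = true → pow8 v = true →
        eq17 (v ++ w) [i] = true → L (coding hF h) i ∈ ((H57.FusSimple.opN 2 (im hF h (GQ hF h))).comap (phi hF h)).map (GC hF h).subtype := by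
      intro i w v hi hw hv h5 h6 h7
      have hwG := W_GC hF h hw
      have hvG := W_GC hF h hv
      have hiG := L_GC hF h hi
      have e1 : W (coding hF h) w * W (coding hF h) v = L (coding hF h) i := by
        rw [← W_append, (eq17_iff hF h (by
          intro j hj
          rcases List.mem_append.1 hj with hj | hj
          · exact hv j hj
          · exact hw j hj) (by intro j hj; rw [List.mem_singleton.1 hj]; exact hi)).1 h7, W_single]
      refine ⟨⟨_, hiG⟩, ?_, rfl⟩
      show phi hF h ⟨_, hiG⟩ ∈ H57.FusSimple.opN 2 (im hF h (GQ hF h))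
      have e2 : (⟨L (coding hF h) i, hiG⟩ : GC hF h) = ⟨_, hwG⟩ * ⟨_, hvG⟩ := Subtype.ext e1.symm
      rw [e2, map_mul]
      exact (H57.FusSimple.opN 2 (im hF h (GQ hF h))).mul_mem (key w hw h5 hwG) (key v hv h6 hvG)
    apply gen_le
    intro l hl
    simp only [c1g, List.mem_cons, List.not_mem_nil, or_false] at hl
    rcases hl with rfl | rfl
    · exact hprod 0 x1W y1W (by norm_num) (by decide) (by decide) p1 p2 r1
    · exact hprod 1 x2W y2W (by norm_num) (by decide) (by decide) p3 p4 r2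
  obtain ⟨d, hd, hdc⟩ := h4 c.2
  have : d = c := Subtype.ext hdc
  rw [← this]; exact hd

theorem tJ_mem_Q : tJ hF h ∈ im hF h (GQ hF h) :=
  (mem_im hF h ⟨T hF h, GP_le_GC hF h (T_GP hF h)⟩).2 (T_GQ hF h)

theorem pCentric_Q : H57.FusSimple.PCentric 2 (im hF h (GQ hF h) : Subgroup (J3 F ω)) := by
  have hfin := finite_V (coding hF h)
  rintro x hx ⟨k, hk⟩
  rw [Subgroup.mem_centralizer_iff] at hx
  have h1 : x ∈ Subgroup.centralizer ({tJ hF h} : Set (J3 F ω)) := by
    rw [Subgroup.mem_centralizer_singleton_iff]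
    exact (hx _ (tJ_mem_Q hF h)).symm
  rw [← range_phi] at h1
  obtain ⟨c, rfl⟩ := h1
  have hcQ : ∀ y ∈ GQ hF h, (c : Equiv.Perm (F9 → F)) * y = y * c := by
    intro y hy
    have h2 := hx (phi hF h ⟨y, GQ_le_GC hF h hy⟩) ((mem_im hF h _).2 hy)
    rw [← map_mul, ← map_mul] at h2
    exact (congrArg Subtype.val (phi_injective hF h h2)).symm
  have hco : orderOf c = 2 ^ k := by
    rw [← hk]; exact (orderOf_injective (phi hF h) (phi_injective hF h) c).symm
  obtain ⟨g, hg⟩ := exists_conj_mem Nat.prime_two (k := 7) (m := 15) (by rw [card_GC hF h]; norm_num) (by norm_num)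
    ((GP hF h).subgroupOf (GC hF h)) (by
      rw [Nat.card_congr (Subgroup.subgroupOfEquivOfLe (GP_le_GC hF h)).toEquiv, card_GP hF h]; norm_num) hco
  have hg' : (g : Equiv.Perm (F9 → F)) * c * (g : Equiv.Perm (F9 → F))⁻¹ ∈ GP hF h := hg
  have h3 : ∀ y ∈ GQ hF h, ((g : Equiv.Perm (F9 → F)) * c * (g : Equiv.Perm (F9 → F))⁻¹) * y =
      y * ((g : Equiv.Perm (F9 → F)) * c * (g : Equiv.Perm (F9 → F))⁻¹) := by
    intro y hy
    have h4 := (Subgroup.mem_normalizer_iff.1 ((Subgroup.inv_mem _ (GC_normalizes hF h g.2))) y).1 hy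
    have h5 := hcQ _ h4
    rw [inv_inv] at h5
    calc (g : Equiv.Perm (F9 → F)) * c * (g : Equiv.Perm (F9 → F))⁻¹ * y
        = g * (c * ((g : Equiv.Perm (F9 → F))⁻¹ * y * g)) * (g : Equiv.Perm (F9 → F))⁻¹ := by group
      _ = g * (((g : Equiv.Perm (F9 → F))⁻¹ * y * g) * c) * (g : Equiv.Perm (F9 → F))⁻¹ := by rw [h5]
      _ = y * ((g : Equiv.Perm (F9 → F)) * c * (g : Equiv.Perm (F9 → F))⁻¹) := by group
  rw [mem_im]
  rcases cent_P hF h hg' h3 with h4 | h4
  · have h5 : (c : Equiv.Perm (F9 → F)) = 1 := by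
      have : (c : Equiv.Perm (F9 → F)) = (g : Equiv.Perm (F9 → F))⁻¹ * ((g : Equiv.Perm (F9 → F)) * c * (g : Equiv.Perm (F9 → F))⁻¹) * g := by group
      rw [this, h4]; group
    rw [h5]; exact Subgroup.one_mem _
  · have h5 : (c : Equiv.Perm (F9 → F)) = T hF h := by
      have h6 : (c : Equiv.Perm (F9 → F)) = (g : Equiv.Perm (F9 → F))⁻¹ * ((g : Equiv.Perm (F9 → F)) * c * (g : Equiv.Perm (F9 → F))⁻¹) * g := by group
      rw [h6, h4, mul_assoc, ← T_comm hF h (GC_le_CT hF h g.2)]; group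
    rw [h5]; exact T_GQ hF h

theorem normalizer_SJ {g : J3 F ω} (hg : g ∈ Subgroup.normalizer ((SJ hF h : Subgroup (J3 F ω)) : Set (J3 F ω))) :
    g ∈ Subgroup.centralizer ({tJ hF h} : Set (J3 F ω)) := by
  have htS : tJ hF h ∈ (SJ hF h : Subgroup (J3 F ω)) := by
    rw [SJ_eq]; exact (mem_im hF h ⟨T hF h, GP_le_GC hF h (T_GP hF h)⟩).2 (T_GP hF h)
  have h1 : g * tJ hF h * g⁻¹ ∈ (SJ hF h : Subgroup (J3 F ω)) := (Subgroup.mem_normalizer_iff.1 hg _).1 htS
  have htc : ∀ y ∈ (SJ hF h : Subgroup (J3 F ω)), y * tJ hF h = tJ hF h * y := by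
    rintro _ ⟨p, hp, rfl⟩
    rw [tJ_eq, ← map_mul, ← map_mul]
    congr 1
    exact Subtype.ext (T_comm hF h (GC_le_CT hF h p.2))
  obtain ⟨p, hp, hpe⟩ := h1
  have hp' : (p : Equiv.Perm (F9 → F)) ∈ GP hF h := hp
  have h2 : ∀ y ∈ GQ hF h, (p : Equiv.Perm (F9 → F)) * y = y * p := by
    intro y hy
    have hyS : phi hF h ⟨y, GQ_le_GC hF h hy⟩ ∈ (SJ hF h : Subgroup (J3 F ω)) := by
      rw [SJ_eq]; exact (mem_im hF h _).2 (GQ_le_GP hF h hy)
    have h3 := (Subgroup.mem_normalizer_iff.1 (Subgroup.inv_mem _ hg) _).1 hyS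
    rw [inv_inv] at h3
    have h4 := htc _ h3
    have h5 : phi hF h p * phi hF h ⟨y, GQ_le_GC hF h hy⟩ = phi hF h ⟨y, GQ_le_GC hF h hy⟩ * phi hF h p := by
      rw [hpe]
      calc g * tJ hF h * g⁻¹ * phi hF h ⟨y, GQ_le_GC hF h hy⟩
          = g * (tJ hF h * (g⁻¹ * phi hF h ⟨y, GQ_le_GC hF h hy⟩ * g)) * g⁻¹ := by group
        _ = g * ((g⁻¹ * phi hF h ⟨y, GQ_le_GC hF h hy⟩ * g) * tJ hF h) * g⁻¹ := by rw [h4]
        _ = phi hF h ⟨y, GQ_le_GC hF h hy⟩ * (g * tJ hF h * g⁻¹) := by group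
    rw [← map_mul, ← map_mul] at h5
    exact congrArg Subtype.val (phi_injective hF h h5)
  rw [Subgroup.mem_centralizer_singleton_iff]
  have ht1 : tJ hF h ≠ 1 := by
    intro e
    have := order_tJ hF h
    rw [e, orderOf_one] at this
    norm_num at this
  rcases cent_P hF h hp' h2 with h3 | h3
  · exfalso
    have h4 : p = 1 := Subtype.ext h3
    rw [h4, map_one] at hpe
    apply ht1
    calc tJ hF h = g⁻¹ * (g * tJ hF h * g⁻¹) * g := by group
      _ = 1 := by rw [← hpe]; group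
  · have h4 : phi hF h p = tJ hF h := by
      rw [tJ_eq]; congr 1; exact Subtype.ext h3
    rw [h4] at hpe
    calc g * tJ hF h = (g * tJ hF h * g⁻¹) * g := by group
      _ = tJ hF h * g := by rw [← hpe]

theorem HB_J3 : H57.FusSimple.HB 2 (SJ hF h : Subgroup (J3 F ω)) := by
  intro g hg
  apply Subgroup.subset_closure
  refine ⟨hg, im hF h (GQ hF h), ?_, pCentric_Q hF h, ?_⟩
  · rw [SJ_eq]
    rintro _ ⟨q, hq, rfl⟩
    exact (mem_im hF h _).2 (GQ_le_GP hF h hq)
  · have h1 := normalizer_SJ hF h hg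
    rw [← range_phi] at h1
    obtain ⟨c, rfl⟩ := h1
    exact Subgroup.mem_sup_left (GC_le_opN hF h c)

theorem fusion_simple {G : Type*} [Group G] [Finite G] (hG : Cfsg.Spor.IsoJ3 G) (S : Sylow 2 G) :
    (Cfsg.groupFusionSystem (S : Subgroup G)).IsSimple 2 := by
  obtain ⟨F, _, _, ω, hF, hω, ⟨e⟩⟩ := hG
  have h := good hF hω
  have := Fact.mk Nat.prime_two
  refine H57.FusSimple.isSimple_of_equiv e.symm (SJ hF h) ?_ (HA_J3 hF h) (HB_J3 hF h) S
  intro h0
  have h1 : Nat.card (SJ hF h : Subgroup (J3 F ω)) = 128 := card_PJ hF h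
  rw [h0, Subgroup.card_bot] at h1
  norm_num at h1

end H10.J3T
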